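import Mathlib
import Cfsg.Agent.Class.Wr.Lin
import Cfsg.Agent.Class.Wr.OrthVal

/-!
Sylow 2-subgroups of orthogonal groups in odd characteristic.
-/

set_option autoImplicit false

namespace Cfsg.Agent.Class.Wr

open Cfsg.Agent.Class.Orth Module Subgroup Equiv QuadraticMap

section grp

variable {G K : Type*} [Group G] [Group K]

theorem exists_mem_sylow_of_surjective {p : ℕ} [Fact p.Prime] [Finite G] (φ : G →* K)
    (hφ : Function.Surjective φ) (hK : IsPGroup p K) (P : Sylow p G) (k : K) :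
    ∃ x ∈ (P : Subgroup G), φ x = k :=
  (hK.to_subgroup ⊤).le_sylow_of_normal (P.mapSurjective hφ) (mem_top k)

theorem isSyl_map_prod {A B : Type*} [Group A] [Group B] {p : ℕ} (φ : A × B →* G)
    (hφ : Function.Injective φ) {S₁ : Subgroup A} {S₂ : Subgroup B} (h₁ : IsSyl p S₁)
    (h₂ : IsSyl p S₂) (h : padicValNat p (Nat.card G) =
      padicValNat p (Nat.card A) + padicValNat p (Nat.card B)) :
    IsSyl p ((S₁.prod S₂).map φ) := by
  rw [IsSyl, card_map_of_injective hφ, Nat.card_congr (prodEquiv S₁ S₂).toEquiv, Nat.card_prod,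
    h₁, h₂, h, pow_add]

theorem map_prod_le {A B : Type*} [Group A] [Group B] (φ : A × B →* G) {S₁ : Subgroup A}
    {S₂ : Subgroup B} {H : Subgroup G} (h₁ : ∀ x ∈ S₁, φ (x, 1) ∈ H) (h₂ : ∀ y ∈ S₂, φ (1, y) ∈ H) :
    (S₁.prod S₂).map φ ≤ H := by
  rintro _ ⟨⟨x, y⟩, h, rfl⟩
  rw [show (x, y) = (x, 1) * (1, y) by simp, map_mul]
  exact mul_mem (h₁ x h.1) (h₂ y h.2)

theorem mem_GdE_of_commute {S N E : Subgroup G} [N.Normal] {x y : G} (hx : x ∈ S)
    (hy : y ∈ GdE 2 S N E) (hc : Commute x y) (hx2 : x * x = 1) (hy2 : y * y = 1)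
    (h : x * y ∈ N) : x ∈ GdE 2 S N E := by
  rw [← mul_inv_cancel_right x y]
  refine mul_mem (mem_GdE_of_Gd (mem_Gd_of_pow (mem_inf.2 ⟨mul_mem hx hy.1, h⟩) ?_)) (inv_mem hy)
  rw [hc.mul_pow, pow_two, pow_two, hx2, hy2, one_mul]

theorem map_mem_commutator (φ : G →* K) {x : G} (hx : x ∈ commutator G) : φ x ∈ commutator K :=
  commutator_mono le_top le_top (map_commutator ⊤ ⊤ φ ▸ mem_map_of_mem φ hx)

end grp

variable {F : Type*} [Field F]

section plane

variable {V : Type*} [AddCommGroup V] [Module F V] [FiniteDimensional F V] {Q : QuadraticForm F V}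

theorem exists_refl_of_dickson (hQ : ND Q) (h : ReflGen Q) (hV : finrank F V ≤ 2) {g : OG Q}
    (hg : dickson hQ h g ≠ 1) : ∃ v, Q v ≠ 0 ∧ g = refl Q v := by
  rw [Ne, dickson_eq_one_iff, Nat.not_even_iff_odd, Nat.odd_iff] at hg
  have := (mov g).finrank_le
  exact exists_eq_refl_of_finrank_mov hQ (by omega)

theorem finite_OG [Finite F] : Finite (OG Q) :=
  have := finite_linEquiv (F := F) (V := V)
  inferInstance

theorem sylow_le_of_refl [Finite F] (hQ : ND Q) (h : ReflGen Q) (hV : finrank F V ≤ 2)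
    (D : Sylow 2 (OG Q)) {H : Subgroup (OG Q)}
    (hH : ∀ v, Q v ≠ 0 → refl Q v ∈ (D : Subgroup (OG Q)) → refl Q v ∈ H) :
    (D : Subgroup (OG Q)) ≤ H := by
  have := finite_OG (Q := Q)
  intro d hd
  rcases subsingleton_or_nontrivial V with hs | hs
  · rw [show d = 1 from OG.ext fun v => Subsingleton.elim _ _]; exact one_mem _
  have key : ∀ g ∈ (D : Subgroup (OG Q)), dickson hQ h g ≠ 1 → g ∈ H := fun g hg h1 => by
    obtain ⟨v, hv, rfl⟩ := exists_refl_of_dickson hQ h hV h1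
    exact hH v hv hg
  by_cases h1 : dickson hQ h d = 1
  · obtain ⟨r, hr, h2⟩ := exists_mem_sylow_of_surjective _ (dickson_surjective hQ h)
      (IsPGroup.of_card (n := 1) (by simp)) D (-1)
    rw [← mul_inv_cancel_right d r]
    exact mul_mem (key _ (mul_mem hd hr) (by rw [map_mul, h1, h2]; decide))
      (inv_mem (key r hr (by rw [h2]; decide)))
  · exact key d hd h1

theorem exists_refl_mem_sylow [Finite F] (h2 : (2 : F) ≠ 0) (hQ : ND Q) (hV : finrank F V = 2)
    (D : Sylow 2 (OG Q)) (c : SqClass F) :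
    ∃ v, Q v ≠ 0 ∧ refl Q v ∈ (D : Subgroup (OG Q)) ∧ sqClass (Q v) = c := by
  have := finite_OG (Q := Q)
  have h := hQ.reflGen_odd h2
  obtain ⟨r, hr, h3⟩ := exists_mem_sylow_of_surjective _
    (dickson_prod_spinor_surjective hQ h hV.ge)
    (IsPGroup.of_card (n := 2) (by simp [card_sqClass h2])) D (-1, c)
  obtain ⟨v, hv, rfl⟩ := exists_refl_of_dickson hQ h hV.le (g := r)
    (by rw [show dickson hQ h r = -1 from congrArg Prod.fst h3]; decide)
  exact ⟨v, hv, hr, (spinor_refl hQ h hv).symm.trans (congrArg Prod.snd h3)⟩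

end plane

section pi

variable {ι W : Type*} [Fintype ι] [AddCommGroup W] [Module F W]

/-- Orthogonal sum of copies of `Q`. -/
abbrev piQ (ι : Type*) [Fintype ι] (Q : QuadraticForm F W) : QuadraticForm F (ι → W) :=
  QuadraticMap.pi fun _ : ι => Q

variable {Q : QuadraticForm F W}

theorem polar_piQ_single [DecidableEq ι] (x : ι → W) (i : ι) (u : W) :
    polar (piQ ι Q) x (Pi.single i u) = polar Q (x i) u := by
  rw [Ring.polar_pi, Finset.sum_eq_single i (fun j _ hj => by simp [Pi.single_eq_of_ne hj]) (by simp),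
    Pi.single_eq_same]

theorem ND.piQ (hQ : ND Q) : ND (piQ ι Q) := fun x hx => by
  classical
  exact funext fun i => hQ _ fun u => (polar_piQ_single x i u).symm.trans (hx _)

/-- `O(Q) ≀ Perm ι` in the orthogonal group of the orthogonal sum. -/
def orthWr [Nontrivial W] (ι : Type*) [Fintype ι] (Q : QuadraticForm F W) :
    WrData (OG (piQ ι Q)) (OG Q) ι :=
  ((linWr F ι W).comp (OG Q).subtype (subtype_injective _)).cod (OG (piQ ι Q))
    (fun f v => by
      rw [pi_apply, pi_apply]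
      exact Finset.sum_congr rfl fun i _ => (f i).2 (v i))
    fun σ v => by
      rw [pi_apply, pi_apply]
      exact Equiv.sum_comp σ⁻¹ fun i => Q (v i)

variable [Nontrivial W] [DecidableEq ι]

theorem orthWr_e_refl (i : ι) (u : W) :
    (orthWr ι Q).e i (refl Q u) = refl (piQ ι Q) (Pi.single i u) := OG.ext fun x => by
  funext j
  rw [Orth.refl_apply, polar_piQ_single, pi_apply_single]
  change (Pi.mulSingle (M := fun _ => OG Q) i (refl Q u) j).1 (x j) = _
  by_cases h : j = i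
  · subst h; simp [Orth.refl_apply]
  · simp [Pi.mulSingle_eq_of_ne h, Pi.single_eq_of_ne h]

theorem negOne_piQ_mem (h : negOne Q ∈ commutator (OG Q)) :
    negOne (piQ ι Q) ∈ commutator (OG (piQ ι Q)) := by
  rw [show negOne (piQ ι Q) = (orthWr ι Q).base fun _ => negOne Q from OG.ext fun _ => rfl]
  exact (orthWr ι Q).base_mem_of fun i => map_mem_commutator _ h

end pi

section sq2

theorem nd_binQF_zero (h2 : (2 : F) ≠ 0) {c : F} (hc : c ≠ 0) : ND (binQF F 0 c) :=
  nd_binQF_of_disc (by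
    rw [show (0 : F) ^ 2 - 4 * c = -(2 * 2 * c) by ring]
    exact neg_ne_zero.2 (mul_ne_zero (mul_ne_zero h2 h2) hc))

theorem negOne_binQF_mem_iff [Finite F] (h2 : (2 : F) ≠ 0) {c : F} (hc : c ≠ 0) :
    negOne (binQF F 0 c) ∈ commutator (OG (binQF F 0 c)) ↔ IsSquare c := by
  have hQ := nd_binQF_zero h2 hc
  rw [negOne_mem_commutator_iff hQ (hQ.reflGen_odd h2) h2 (Pi.basisFun F _), Matrix.det_fin_two]
  simp only [Matrix.of_apply, polar_binQF, Pi.basisFun_apply]
  simp only [finrank_fin_fun, even_two, true_and]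
  rw [← sqClass_eq_one_iff hc, ← sqClass_eq_one_iff (by simp [h2, hc])]
  have : sqClass (2 ^ 2 * c) = sqClass c := by
    rw [sqClass_mul (pow_ne_zero 2 h2) hc, sqClass_sq, one_mul]
  rw [← this]
  congr! 2
  simp; ring

variable {ι : Type*} [Fintype ι] [DecidableEq ι]

theorem refl_swap_apply (h2 : (2 : F) ≠ 0) {i j : ι} (hij : i ≠ j) (t : Fin 2)
    (x : ι → Fin 2 → F) (l : ι) (s : Fin 2) :
    (refl (piQ ι (binQF F 0 1)) (Pi.single i (Pi.single t 1) - Pi.single j (Pi.single t 1))).1 x l s =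
      if s = t then x (swap i j l) s else x l s := by
  have h1 : binQF F 0 1 (Pi.single t 1) = 1 := by fin_cases t <;> simp [binQF_apply]
  have h3 : ∀ y, polar (binQF F 0 1) y (Pi.single t 1) = 2 * y t := fun y => by
    fin_cases t <;> simp [polar_binQF]
  rw [Orth.refl_apply, Q_sub, polar_sub_right, polar_piQ_single, polar_piQ_single, polar_piQ_single,
    pi_apply_single, pi_apply_single, h1, h3, h3, h3, Pi.single_eq_of_ne hij.symm]
  simp only [Pi.sub_apply, Pi.smul_apply, smul_eq_mul]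
  by_cases hs : s = t
  · subst hs
    by_cases hi : l = i
    · subst hi
      simp [Pi.single_eq_of_ne hij, one_add_one_eq_two]; field_simp; ring
    · by_cases hj : l = j
      · subst hj
        simp [Pi.single_eq_of_ne hi, one_add_one_eq_two]; field_simp; ring
      · simp [Pi.single_eq_of_ne hi, Pi.single_eq_of_ne hj, swap_apply_of_ne_of_ne hi hj]
  · have : ∀ k : ι, Pi.single (M := fun _ => Fin 2 → F) k (Pi.single t 1) l s = 0 := fun k => by
      by_cases hk : l = k
      · subst hk; simp [Pi.single_eq_of_ne hs]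
      · simp [Pi.single_eq_of_ne hk]
    simp [this, hs]

theorem orthWr_top_mem (h2 : (2 : F) ≠ 0) (σ : Perm ι) :
    (orthWr ι (binQF F 0 1)).top σ ∈ commutator (OG (piQ ι (binQF F 0 1))) := by
  induction σ using Perm.swap_induction_on with
  | one => rw [map_one]; exact one_mem _
  | swap_mul σ i j hij ih =>
    rw [map_mul]
    refine mul_mem ?_ ih
    have hq : ∀ t : Fin 2, piQ ι (binQF F 0 1)
        (Pi.single i (Pi.single t 1) - Pi.single j (Pi.single t 1)) = 2 := fun t => by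
      rw [Q_sub, polar_piQ_single, pi_apply_single, pi_apply_single, Pi.single_eq_of_ne hij.symm]
      fin_cases t <;> simp [binQF_apply, one_add_one_eq_two]
    have := refl_mul_refl_mem_commutator (ND.piQ (ι := ι) (nd_binQF_zero h2 one_ne_zero))
      (hq 0 ▸ h2) (hq 1 ▸ h2) (by rw [hq, hq])
    convert this using 1
    refine OG.ext fun x => funext fun l => funext fun s => ?_
    rw [OG.mul_apply, refl_swap_apply h2 hij, refl_swap_apply h2 hij, refl_swap_apply h2 hij]
    change x ((swap i j)⁻¹ l) s = _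
    fin_cases s <;> simp

end sq2

theorem eag_omega [Fintype F] (hF : Odd (Fintype.card F)) {ι : Type*} [Fintype ι] [Nontrivial ι]
    {V₀ : Type*} [AddCommGroup V₀] [Module F V₀] [FiniteDimensional F V₀] {Q₀ : QuadraticForm F V₀}
    (hQ₀ : ND Q₀) (h0 : finrank F V₀ ≤ 2)
    (hv : padicValNat 2 (Nat.card (OG ((piQ ι (binQF F 0 1)).prod Q₀))) =
      Nat.card ι * padicValNat 2 (Nat.card F ^ 2 - 1) + padicValNat 2 (Nat.card ι).factorial +
        padicValNat 2 (Nat.card (OG Q₀))) :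
    ∀ P : Sylow 2 (commutator (OG ((piQ ι (binQF F 0 1)).prod Q₀))), EAg 2 P := by
  classical
  have h2 := two_ne_zero_of_odd_card hF
  have hW := nd_binQF_zero h2 (one_ne_zero (α := F))
  have hQ := (ND.piQ (ι := ι) hW).prod' hQ₀
  set W := binQF F 0 1
  set Q := (piQ ι W).prod Q₀
  intro P
  have := finite_OG (Q := W)
  have := finite_OG (Q := Q₀)
  have := finite_OG (Q := Q)
  obtain ⟨D⟩ : Nonempty (Sylow 2 (OG W)) := inferInstance
  obtain ⟨D₀⟩ : Nonempty (Sylow 2 (OG Q₀)) := inferInstance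
  obtain ⟨T⟩ : Nonempty (Sylow 2 (Perm ι)) := inferInstance
  set w := orthWr ι W
  set φ := prodHom (piQ ι W) Q₀
  have hφ : Function.Injective φ := fun g h e => by
    have := linProd_injective (a₁ := (g.1.1, g.2.1)) (a₂ := (h.1.1, h.2.1)) (congrArg Subtype.val e)
    exact Prod.ext (Subtype.ext (congrArg Prod.fst this)) (Subtype.ext (congrArg Prod.snd this))
  set S := ((w.sub D T).prod D₀).map φ
  have hS : IsSyl 2 S := by
    have h3 := (val_card_OG_even hF hW (m := 0) (by simp)).1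
      ((negOne_binQF_mem_iff h2 one_ne_zero).2 IsSquare.one)
    rw [IsSyl, card_map_of_injective hφ, Nat.card_congr (prodEquiv _ _).toEquiv, Nat.card_prod,
      w.card_sub, isSyl_sylow D, isSyl_sylow D₀, isSyl_sylow T, hv, h3, Nat.card_perm]
    simp [pow_add, pow_mul']
  obtain ⟨e⟩ := hS.nonempty_inf_equiv _ P
  refine EAg.of_equiv ?_ e
  obtain ⟨c, hc⟩ := exists_sqClass_ne_one h2
  obtain ⟨a, ha0, ha, hac⟩ := exists_refl_mem_sylow h2 hW (by simp) D 1
  obtain ⟨b, hb0, hb, hbc⟩ := exists_refl_mem_sylow h2 hW (by simp) D c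
  obtain ⟨i₀, i₁, h01⟩ := exists_pair_ne ι
  let ψ : OG (piQ ι W) →* OG Q := φ.comp (MonoidHom.inl _ _)
  have hψ : ∀ x ∈ w.sub D T, ψ x ∈ S := fun x hx => ⟨(x, 1), ⟨hx, one_mem _⟩, rfl⟩
  let r : ι → (Fin 2 → F) → OG Q := fun i u => refl Q (Pi.single i u, 0)
  have hr : ∀ i u, ψ (w.e i (refl W u)) = r i u := fun i u => by
    rw [orthWr_e_refl]; exact prodHom_refl_one _
  have hrS : ∀ i u, refl W u ∈ (D : Subgroup (OG W)) → r i u ∈ S := fun i u hu =>
    hr i u ▸ hψ _ (w.e_mem_sub _ i hu)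
  have hrQ : ∀ i u, Q (Pi.single i u, 0) = W u := fun i u => by
    rw [QuadraticMap.prod_apply, pi_apply_single, map_zero, add_zero]
  have hrc : ∀ {i j}, i ≠ j → ∀ u v, Commute (r i u) (r j v) := fun h u v => by
    rw [← hr, ← hr]; exact (w.commute_e h _ _).map ψ
  let K : ι → Subgroup (OG W) := fun i => if i = i₀ then zpowers (refl W a) else zpowers (refl W b)
  have hK : ∀ i, K i ≤ D ∧ ∀ x ∈ K i, x * x = 1 := fun i => by
    have : ∀ u, ∀ x ∈ zpowers (refl W u), x * x = 1 := by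
      rintro u _ ⟨k, rfl⟩
      rw [← Commute.mul_zpow (Commute.refl _), refl_mul_self, one_zpow]
    by_cases h : i = i₀ <;> simp only [K, h, if_true, if_false]
    exacts [⟨(zpowers_le).2 ha, this a⟩, ⟨(zpowers_le).2 hb, this b⟩]
  let E := (Subgroup.pi Set.univ K).map (ψ.comp w.base)
  have hE : E ≤ S := by
    rintro _ ⟨f, hf, rfl⟩
    exact hψ _ (w.base_mem_sub _ fun i => (hK i).1 (hf i trivial))
  have hmem : ∀ i u, refl W u ∈ K i → r i u ∈ GdE 2 S (commutator (OG Q)) E := fun i u h =>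
    mem_GdE_of_E hE ⟨Pi.mulSingle i (refl W u), fun j _ => by
      by_cases hj : j = i
      · subst hj; simpa using h
      · simp [Pi.mulSingle_eq_of_ne hj], hr i u⟩
  have hA := hmem i₀ a (by simp [K])
  have hB := hmem i₁ b (by simp [K, h01.symm])
  have hN : ∀ {v} i {u}, Q v ≠ 0 → W u ≠ 0 → sqClass (Q v) = sqClass (W u) →
      refl Q v * r i u ∈ commutator (OG Q) := fun i u hv hu h =>
    refl_mul_refl_mem_commutator hQ hv (by rwa [hrQ]) (by rwa [hrQ])
  have hA' : r i₁ a ∈ GdE 2 S (commutator (OG Q)) E := mem_GdE_of_commute (hrS _ _ ha) hA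
    (hrc h01.symm _ _) (refl_mul_self _) (refl_mul_self _) (hN _ (by rwa [hrQ]) ha0 (by rw [hrQ]))
  have hB' : r i₀ b ∈ GdE 2 S (commutator (OG Q)) E := mem_GdE_of_commute (hrS _ _ hb) hB
    (hrc h01 _ _) (refl_mul_self _) (refl_mul_self _) (hN _ (by rwa [hrQ]) hb0 (by rw [hrQ]))
  have key : ∀ v, Q v ≠ 0 → refl Q v ∈ S →
      ((∀ u, Commute (refl Q v) (r i₀ u)) ∨ ∀ u, Commute (refl Q v) (r i₁ u)) →
      refl Q v ∈ GdE 2 S (commutator (OG Q)) E := fun v hv hS h => by
    by_cases h1 : sqClass (Q v) = 1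
    · rcases h with h | h
      exacts [mem_GdE_of_commute hS hA (h _) (refl_mul_self _) (refl_mul_self _)
        (hN _ hv ha0 (h1.trans hac.symm)), mem_GdE_of_commute hS hA' (h _) (refl_mul_self _)
        (refl_mul_self _) (hN _ hv ha0 (h1.trans hac.symm))]
    · have h3 := (sqClass_eq_of_ne_one h1 hc).trans hbc.symm
      rcases h with h | h
      exacts [mem_GdE_of_commute hS hB' (h _) (refl_mul_self _) (refl_mul_self _)
        (hN _ hv hb0 h3), mem_GdE_of_commute hS hB (h _) (refl_mul_self _)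
        (refl_mul_self _) (hN _ hv hb0 h3)]
  refine eag_of_le_GdE hE ?_ (map_prod_le φ ?_ ?_)
  · rintro _ ⟨f, hf, rfl⟩ -
    rw [pow_two, ← map_mul, show f * f = 1 from funext fun i => (hK i).2 _ (hf i trivial), map_one]
  · refine w.sub_le' (H := (GdE 2 S (commutator (OG Q)) E).comap ψ) T (fun i => ?_)
      fun σ hσ h => mem_GdE_of_Gd (mem_Gd_of_pow (mem_inf.2 ⟨hψ _ (w.top_mem_sub _ hσ),
        map_mem_commutator ψ (orthWr_top_mem h2 σ)⟩) (by rw [← map_pow, ← map_pow, h]; simp))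
    refine sylow_le_of_refl hW (hW.reflGen_odd h2) (by simp) D
      (H := ((GdE 2 S (commutator (OG Q)) E).comap ψ).comap (w.e i)) fun u hu hu' => ?_
    rw [mem_comap, mem_comap, hr]
    refine key _ (by rwa [hrQ]) (hrS _ _ hu') ?_
    by_cases hi : i = i₀
    · exact Or.inr (hrc (hi ▸ h01) u)
    · exact Or.inl (hrc hi u)
  · refine sylow_le_of_refl hQ₀ (hQ₀.reflGen_odd h2) h0 D₀
      (H := (GdE 2 S (commutator (OG Q)) E).comap (φ.comp (MonoidHom.inr _ _))) fun u hu hu' => ?_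
    change φ (1, refl Q₀ u) ∈ GdE 2 S (commutator (OG Q)) E
    have h3 : φ (1, refl Q₀ u) = refl Q (0, u) := prodHom_one_refl u
    rw [h3]
    refine key _ (by simpa [Q] using hu) (h3 ▸ ⟨(1, refl Q₀ u), ⟨one_mem _, hu'⟩, rfl⟩)
      (Or.inl fun v => ?_)
    rw [← h3, ← hr]
    exact Commute.map (show Commute ((1 : OG (piQ ι W)), refl Q₀ u) (_, 1) by simp [Commute, SemiconjBy]) φ

theorem eag_omega_of_equiv {G H : Type*} [Group G] [Group H] [Finite G] (e : G ≃* H)
    (h : ∀ P : Sylow 2 (commutator G), EAg 2 P) (P : Sylow 2 (commutator H)) : EAg 2 P := by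
  have := Finite.of_equiv _ e.toEquiv
  obtain ⟨P'⟩ : Nonempty (Sylow 2 (commutator G)) := inferInstance
  obtain ⟨f⟩ := nonempty_sylow_equiv_of_equiv (commutatorCongr e) P' P
  exact (h P').of_equiv f

variable [Fintype F] {V : Type*} [AddCommGroup V] [Module F V] [FiniteDimensional F V]
  {Q : QuadraticForm F V}

theorem eag_omega_odd (hF : Odd (Fintype.card F)) (hQ : ND Q) {m : ℕ} (hm : 2 ≤ m)
    (hV : finrank F V = 2 * m + 1) (P : Sylow 2 (commutator (OG Q))) : EAg 2 P := by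
  have h2 := two_ne_zero_of_odd_card hF
  have : Nontrivial (Fin m) := Fin.nontrivial_iff_two_le.2 hm
  have hQ' := (ND.piQ (ι := Fin m) (nd_binQF_zero h2 one_ne_zero)).prod' (nd_oddQF 0 F h2)
  have hd : finrank F ((Fin m → Fin 2 → F) × (Unit ⊕ (Fin 0 ⊕ Fin 0) → F)) = 2 * m + 1 := by
    simp [finrank_pi_fintype, mul_comm]
  obtain ⟨e⟩ := nonempty_OG_equiv_odd hQ hV
  obtain ⟨e'⟩ := nonempty_OG_equiv_odd hQ' hd
  have := finite_OG (Q := (piQ (Fin m) (binQF F 0 1)).prod (oddQF 0 F))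
  refine eag_omega_of_equiv (e'.trans e.symm) (eag_omega hF (nd_oddQF 0 F h2) (by simp) ?_) P
  rw [val_card_OG_odd hF hQ' hd, val_card_OG_odd hF (nd_oddQF 0 F h2) (m := 0) (by simp)]
  simp

theorem eag_omega_of_mem (hF : Odd (Fintype.card F)) (hQ : ND Q) {m : ℕ} (hm : 1 ≤ m)
    (hV : finrank F V = 2 * m + 2) (h : negOne Q ∈ commutator (OG Q))
    (P : Sylow 2 (commutator (OG Q))) : EAg 2 P := by
  classical
  have h2 := two_ne_zero_of_odd_card hF
  have : Nontrivial (Fin (m + 1)) := Fin.nontrivial_iff_two_le.2 (by omega)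
  have hQ' := (ND.piQ (ι := Fin (m + 1)) (nd_binQF_zero h2 one_ne_zero)).prod' (nd_plusQF 0 F)
  have hd : finrank F ((Fin (m + 1) → Fin 2 → F) × (Fin 0 ⊕ Fin 0 → F)) = 2 * m + 2 := by
    simp [finrank_pi_fintype]; ring
  have h' : negOne _ ∈ commutator (OG ((piQ (Fin (m + 1)) (binQF F 0 1)).prod (plusQF 0 F))) := by
    convert map_mem_commutator ((prodHom _ (plusQF 0 F)).comp (MonoidHom.inl _ _))
      (negOne_piQ_mem (ι := Fin (m + 1)) ((negOne_binQF_mem_iff h2 one_ne_zero).2 IsSquare.one))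
      using 1
    exact OG.ext fun v => Prod.ext rfl (Subsingleton.elim _ _)
  obtain ⟨e⟩ := nonempty_OG_equiv_even hF hQ' hQ hd hV (iff_of_true h' h)
  have := finite_OG (Q := (piQ (Fin (m + 1)) (binQF F 0 1)).prod (plusQF 0 F))
  refine eag_omega_of_equiv e (eag_omega hF (nd_plusQF 0 F) (by simp) ?_) P
  have : Subsingleton (OG (plusQF 0 F)) := ⟨fun _ _ => OG.ext fun _ => Subsingleton.elim _ _⟩
  rw [(val_card_OG_even hF hQ' hd).1 h', Nat.card_unique (α := OG (plusQF 0 F))]
  simp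

theorem eag_omega_of_not_mem (hF : Odd (Fintype.card F)) (hQ : ND Q) {m : ℕ} (hm : 2 ≤ m)
    (hV : finrank F V = 2 * m + 2) (h : negOne Q ∉ commutator (OG Q))
    (P : Sylow 2 (commutator (OG Q))) : EAg 2 P := by
  classical
  have h2 := two_ne_zero_of_odd_card hF
  obtain ⟨c, hc⟩ := exists_sqClass_ne_one h2
  obtain ⟨α, h0, rfl⟩ := sqClass_surjective c
  rw [Ne, sqClass_eq_one_iff h0, ← negOne_binQF_mem_iff h2 h0] at hc
  have : Nontrivial (Fin m) := Fin.nontrivial_iff_two_le.2 hm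
  have hW := ND.piQ (ι := Fin m) (nd_binQF_zero h2 one_ne_zero)
  have h₀ := nd_binQF_zero h2 h0
  have hQ' := hW.prod' h₀
  have hd : finrank F ((Fin m → Fin 2 → F) × (Fin 2 → F)) = 2 * m + 2 := by
    simp [finrank_pi_fintype, mul_comm]
  have h' : negOne _ ∉ commutator (OG ((piQ (Fin m) (binQF F 0 1)).prod (binQF F 0 α))) := by
    intro h1
    apply hc
    have h3 := ((mem_commutator_iff_det hW (hW.reflGen_odd h2) h2 _).1
      (negOne_piQ_mem ((negOne_binQF_mem_iff h2 one_ne_zero).2 IsSquare.one))).2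
    have h4 := ((mem_commutator_iff_det hQ' (hQ'.reflGen_odd h2) h2 _).1 h1).2
    rw [show negOne _ = prodHom _ _ (negOne _, negOne _) from OG.ext fun _ => rfl,
      spinor_prodHom hW h₀ (hW.reflGen_odd h2) (h₀.reflGen_odd h2), h3, one_mul] at h4
    exact (mem_commutator_iff_det h₀ (h₀.reflGen_odd h2) h2 _).2
      ⟨Units.ext (by rw [detO_negOne]; simp), h4⟩
  obtain ⟨e⟩ := nonempty_OG_equiv_even hF hQ' hQ hd hV (iff_of_false h' h)
  have := finite_OG (Q := (piQ (Fin m) (binQF F 0 1)).prod (binQF F 0 α))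
  refine eag_omega_of_equiv e (eag_omega hF h₀ (by simp) ?_) P
  rw [(val_card_OG_even hF hQ' hd).2 h', (val_card_OG_even hF h₀ (m := 0) (by simp)).2 hc]
  simp

theorem eag_omega_even (hF : Odd (Fintype.card F)) (hQ : ND Q) {m : ℕ} (hm : 2 ≤ m)
    (hV : finrank F V = 2 * m + 2) (P : Sylow 2 (commutator (OG Q))) : EAg 2 P := by
  by_cases h : negOne Q ∈ commutator (OG Q)
  exacts [eag_omega_of_mem hF hQ (by omega) hV h P, eag_omega_of_not_mem hF hQ hm hV h P]

end Cfsg.Agent.Class.Wr
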